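import Mathlib
import Cfsg.Agent.H88.M22Fus
import Cfsg.Agent.H33.MclIso

/-!
# The 2-fusion system of the McLaughlin group is simple

The coordinate permutations fixing two points (the Mathieu group `M₂₂`) fix the two vectors
defining the McLaughlin group, and the two groups have Sylow 2-subgroups of the same order
`2^7`.  Hence the data on a Sylow 2-subgroup of `M₂₂` (its automorphism group is a 2-group, and
it has no proper nontrivial strongly closed subgroup already with respect to `M₂₂`) give the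
simplicity of the 2-fusion system of the McLaughlin group.
-/

set_option autoImplicit false
set_option maxRecDepth 100000

namespace Cfsg.Agent.H33.McLF

open Cfsg

/-- Simplicity of the 2-fusion system of `G` from data on a 2-subgroup `Q` of a group `Gsub`
embedded in `G`, when `Q` has the largest possible order. -/
theorem simple_of_embed {G M : Type*} [Group G] [Finite G] [Group M]
    (Gsub Q : Subgroup M) (hle : Q ≤ Gsub) (φ : ↥Gsub →* G) (hφ : Function.Injective φ)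
    (k : ℕ) (hQ : Nat.card Q = 2 ^ k) (hk : k ≠ 0)
    (hcard : ¬ 2 ^ (k + 1) ∣ Nat.card G) (hA : IsPGroup 2 (MulAut Q))
    (hcl : ∀ T : Subgroup M, T ≤ Q → T ≠ ⊥ →
      (∀ x ∈ T, ∀ d ∈ Gsub, d * x * d⁻¹ ∈ Q → d * x * d⁻¹ ∈ T) → T = Q)
    (S : Sylow 2 G) : (groupFusionSystem (S : Subgroup G)).IsSimple 2 := by
  have e1 : ↥Q ≃* ↥(Q.subgroupOf Gsub) := (Subgroup.subgroupOfEquivOfLe hle).symm
  have e2 : ↥(Q.subgroupOf Gsub) ≃* ↥((Q.subgroupOf Gsub).map φ) :=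
    (Q.subgroupOf Gsub).equivMapOfInjective φ hφ
  have hc0 : Nat.card ↥((Q.subgroupOf Gsub).map φ) = 2 ^ k := by
    rw [← Nat.card_congr (e1.trans e2).toEquiv, hQ]
  have hP0 : IsPGroup 2 ↥((Q.subgroupOf Gsub).map φ) := IsPGroup.of_card hc0
  obtain ⟨P, hP⟩ := hP0.exists_le_sylow
  have hPeq : (Q.subgroupOf Gsub).map φ = (P : Subgroup G) := by
    apply Subgroup.eq_of_le_of_card_ge hP
    obtain ⟨n, hn⟩ := IsPGroup.iff_card.1 P.isPGroup'
    have hdvd : 2 ^ n ∣ Nat.card G := by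
      rw [← hn]
      exact Subgroup.card_subgroup_dvd_card _
    have hle' : n ≤ k := by
      by_contra hlt
      push Not at hlt
      exact hcard ((pow_dvd_pow 2 hlt).trans hdvd)
    rw [hn, hc0]
    exact Nat.pow_le_pow_right (by norm_num) hle'
  have hmemP : ∀ z : G, z ∈ (P : Subgroup G) ↔ ∃ q : ↥Gsub, (q : M) ∈ Q ∧ φ q = z := by
    intro z
    rw [← hPeq]
    constructor
    · rintro ⟨q, hq, rfl⟩
      exact ⟨q, Subgroup.mem_subgroupOf.1 hq, rfl⟩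
    · rintro ⟨q, hq, rfl⟩
      exact ⟨q, Subgroup.mem_subgroupOf.2 hq, rfl⟩
  refine Cfsg.Agent.H88.simple_of_sylow_data 2 P ?_ ?_ ?_ S
  · rw [← hPeq]
    intro h
    rw [h, Subgroup.card_bot] at hc0
    have : 2 ^ k ≠ 1 := by
      have := Nat.one_lt_two_pow hk
      omega
    exact this hc0.symm
  · rw [← hPeq]
    exact hA.of_equiv (MulAut.congr (e1.trans e2))
  · intro T hT hT1 hK
    have hT0 : ∀ x : M, x ∈ (T.comap φ).map Gsub.subtype ↔ ∃ y : ↥Gsub, φ y ∈ T ∧ (y : M) = x := by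
      intro x
      constructor
      · rintro ⟨y, hy, rfl⟩
        exact ⟨y, hy, rfl⟩
      · rintro ⟨y, hy, rfl⟩
        exact ⟨y, hy, rfl⟩
    have h1 := hcl ((T.comap φ).map Gsub.subtype) ?_ ?_ ?_
    · apply le_antisymm hT
      intro z hz
      obtain ⟨q, hq, rfl⟩ := (hmemP z).1 hz
      rw [← h1] at hq
      obtain ⟨y, hy, e⟩ := (hT0 _).1 hq
      have : y = q := Subtype.ext e
      rw [← this]
      exact hy
    · intro x hx
      obtain ⟨y, hy, rfl⟩ := (hT0 x).1 hx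
      obtain ⟨q, hq, e⟩ := (hmemP _).1 (hT hy)
      have : q = y := hφ e
      rw [← this]
      exact hq
    · intro h
      apply hT1
      rw [eq_bot_iff]
      intro t ht
      obtain ⟨q, hq, rfl⟩ := (hmemP t).1 (hT ht)
      have h2 : (q : M) ∈ (T.comap φ).map Gsub.subtype := (hT0 _).2 ⟨q, ht, rfl⟩
      rw [h, Subgroup.mem_bot] at h2
      have h3 : q = 1 := Subtype.ext h2
      rw [Subgroup.mem_bot, h3, map_one]
    · intro x hx d hd hdx
      obtain ⟨y, hy, rfl⟩ := (hT0 x).1 hx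
      have h2 : φ (⟨d, hd⟩ * y * (⟨d, hd⟩ : ↥Gsub)⁻¹) ∈ (P : Subgroup G) :=
        (hmemP _).2 ⟨⟨d, hd⟩ * y * (⟨d, hd⟩ : ↥Gsub)⁻¹, hdx, rfl⟩
      have h3 : φ (⟨d, hd⟩ * y * (⟨d, hd⟩ : ↥Gsub)⁻¹) ∈ T := by
        rw [map_mul, map_mul, map_inv] at h2 ⊢
        exact hK _ hy _ h2
      exact (hT0 _).2 ⟨⟨d, hd⟩ * y * (⟨d, hd⟩ : ↥Gsub)⁻¹, h3, rfl⟩

/-! ### The embedding of `M₂₂` -/

theorem mem_M22 {σ : Equiv.Perm GolayPt} (h : σ ∈ Spor.M22) :
    σ ∈ M24 ∧ σ (none : GolayPt) = none ∧ σ (some 0 : GolayPt) = some 0 := by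
  obtain ⟨⟨h1, h2⟩, h3⟩ := h
  exact ⟨h1, h2, h3⟩

theorem inv_fix {σ : Equiv.Perm GolayPt} {p : GolayPt} (h : σ p = p) (i : GolayPt) :
    σ⁻¹ i = p ↔ i = p := by
  rw [Equiv.Perm.inv_eq_iff_eq]
  constructor
  · intro e; rw [e, h]
  · intro e; rw [e, h]

theorem pm_fix_V (σ : ↥M24) (h : (σ : Equiv.Perm GolayPt) (none : GolayPt) = none) :
    ((Cfsg.Agent.H33.pmHom σ : ↥Co0) : Equiv.Perm leechLattice) Spor.leechV = Spor.leechV := by
  apply Subtype.ext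
  funext i
  rw [Cfsg.Agent.H33.pmHom_apply]
  show Spor.vecV ((σ : Equiv.Perm GolayPt)⁻¹ i) = Spor.vecV i
  unfold Spor.vecV
  simp only [inv_fix h i]

theorem pm_fix_U (σ : ↥M24) (h : (σ : Equiv.Perm GolayPt) (none : GolayPt) = none)
    (h0 : (σ : Equiv.Perm GolayPt) (some 0 : GolayPt) = some 0) :
    ((Cfsg.Agent.H33.pmHom σ : ↥Co0) : Equiv.Perm leechLattice) Spor.leechU = Spor.leechU := by
  apply Subtype.ext
  funext i
  rw [Cfsg.Agent.H33.pmHom_apply]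
  show Spor.vecU ((σ : Equiv.Perm GolayPt)⁻¹ i) = Spor.vecU i
  unfold Spor.vecU
  simp only [inv_fix h i, inv_fix h0 i]

/-- the coordinate permutations fixing the two points, inside the McLaughlin group -/
noncomputable def m22ToMcL : ↥Spor.M22 →* ↥Spor.McL where
  toFun σ := ⟨((Cfsg.Agent.H33.pmHom ⟨σ.1, (mem_M22 σ.2).1⟩ : ↥Co0) : Equiv.Perm leechLattice),
    Cfsg.Agent.H33.MclP.mem_McL.mpr ⟨(Cfsg.Agent.H33.pmHom ⟨σ.1, (mem_M22 σ.2).1⟩ : ↥Co0).2,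
      pm_fix_V ⟨σ.1, (mem_M22 σ.2).1⟩ (mem_M22 σ.2).2.1,
      pm_fix_U ⟨σ.1, (mem_M22 σ.2).1⟩ (mem_M22 σ.2).2.1 (mem_M22 σ.2).2.2⟩⟩
  map_one' := by
    apply Subtype.ext
    have : (⟨((1 : ↥Spor.M22) : Equiv.Perm GolayPt), (mem_M22 (1 : ↥Spor.M22).2).1⟩ : ↥M24) = 1 :=
      rfl
    show ((Cfsg.Agent.H33.pmHom ⟨((1 : ↥Spor.M22) : Equiv.Perm GolayPt), _⟩ : ↥Co0) :
      Equiv.Perm leechLattice) = 1
    rw [this, map_one]
    rfl
  map_mul' σ τ := by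
    apply Subtype.ext
    have : (⟨((σ * τ : ↥Spor.M22) : Equiv.Perm GolayPt), (mem_M22 (σ * τ).2).1⟩ : ↥M24)
        = ⟨σ.1, (mem_M22 σ.2).1⟩ * ⟨τ.1, (mem_M22 τ.2).1⟩ := rfl
    show ((Cfsg.Agent.H33.pmHom ⟨((σ * τ : ↥Spor.M22) : Equiv.Perm GolayPt), _⟩ : ↥Co0) :
      Equiv.Perm leechLattice) = _
    rw [this, map_mul]
    rfl

theorem m22ToMcL_injective : Function.Injective m22ToMcL := by
  intro σ τ h
  have h0 : ((m22ToMcL σ : ↥Spor.McL) : Equiv.Perm leechLattice)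
      = ((m22ToMcL τ : ↥Spor.McL) : Equiv.Perm leechLattice) := congrArg Subtype.val h
  have h1 : ((Cfsg.Agent.H33.pmHom ⟨σ.1, (mem_M22 σ.2).1⟩ : ↥Co0) : Equiv.Perm leechLattice)
      = ((Cfsg.Agent.H33.pmHom ⟨τ.1, (mem_M22 τ.2).1⟩ : ↥Co0) : Equiv.Perm leechLattice) := h0
  have h2 : (⟨σ.1, (mem_M22 σ.2).1⟩ : ↥M24) = ⟨τ.1, (mem_M22 τ.2).1⟩ :=
    Cfsg.Agent.H33.pmHom_injective (Subtype.ext h1)
  have h3 : σ.1 = τ.1 := Subtype.mk.inj h2
  exact Subtype.ext h3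

theorem card_McL : Nat.card ↥Spor.McL = 898128000 := by
  obtain ⟨e⟩ := Cfsg.Agent.H33.MclP.iso
  rw [Nat.card_congr e.toEquiv]
  exact Cfsg.Agent.H33.MclP.simple.2

/-- The `2`-fusion system of a group isomorphic to the McLaughlin group is simple. -/
theorem mcl_fusion_simple {G : Type*} [Group G] [Finite G] (e : G ≃* ↥Spor.McL) (S : Sylow 2 G) :
    (groupFusionSystem (S : Subgroup G)).IsSimple 2 := by
  have hle : Cfsg.Agent.H88.PG.grp Cfsg.Agent.H88.M22D.gs ≤ Spor.M22 :=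
    (Subgroup.closure_le _).2 (by
      rintro x ⟨g, hg, rfl⟩
      exact Cfsg.Agent.H88.M22D.okF_mem g
        (List.all_eq_true.1 Cfsg.Agent.H88.M22D.gens_ok g hg))
  have hlen : Cfsg.Agent.H88.M22D.gs.length = 7 := rfl
  have hQ : Nat.card ↥(Cfsg.Agent.H88.PG.grp Cfsg.Agent.H88.M22D.gs) = 2 ^ 7 := by
    rw [Cfsg.Agent.H88.PG.card_grp Cfsg.Agent.H88.M22D.chain_ok Cfsg.Agent.H88.M22D.strict_ok,
      hlen]
  refine simple_of_embed Spor.M22 (Cfsg.Agent.H88.PG.grp Cfsg.Agent.H88.M22D.gs) hle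
    (e.symm.toMonoidHom.comp m22ToMcL) (e.symm.injective.comp m22ToMcL_injective) 7 hQ
    (by norm_num) ?_ Cfsg.Agent.H88.M22D.aut_isPGroup
    (fun T hT hT1 hK => Cfsg.Agent.H88.PG.eq_of_fus Cfsg.Agent.H88.M22D.okF_mem
      Cfsg.Agent.H88.M22D.chain_ok Cfsg.Agent.H88.M22D.strict_ok hle Cfsg.Agent.H88.M22D.zc_ok
      Cfsg.Agent.H88.M22D.center_le Cfsg.Agent.H88.M22D.fus_ok T hT hT1 hK) S
  rw [Nat.card_congr e.toEquiv, card_McL]
  norm_num

end Cfsg.Agent.H33.McLF
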